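import Cfsg.Agent.H51.SY.J4
import Cfsg.Agent.KFacts.MM.El
import Cfsg.Agent.H959.T5.Tools

/-!
# The row `J4` of S3854 (helper196, for helper959)

`p = 5, 7, 23`: `M24`; `p = 11`: an involution in the centralizer; `p = 29, 31, 37, 43`: an element of order 8.
-/

set_option autoImplicit false

namespace Cfsg.Agent.H196.T5.J4

open Subgroup Cfsg Cfsg.Agent.H301.SY Cfsg.Agent.H459.Rad Cfsg.Agent.H51.SY Cfsg.Agent.H839.Rad
open Cfsg.Agent.H51.SY.J4 Cfsg.Agent.H959.T5

open Cfsg.Agent.KFacts.MM.El Cfsg.Agent.SporadicA.GolayPerm in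
/-- an element of order 8 of `M24` -/
theorem m24_eight : ∃ g : M24, orderOf g = 2 ^ 3 := by
  have h0 : isPerm 975608309290419813419816434794660928 = true := by decide +kernel
  have hm := pm_mem_M24 h0 (by decide +kernel)
  have h0l : ∀ n : ℕ, okl (List.replicate n 975608309290419813419816434794660928) = true := by
    intro n
    rw [okl, List.all_eq_true]
    intro x hx
    rw [List.eq_of_mem_replicate hx]
    exact h0
  have hpr : ∀ n : ℕ, pr (List.replicate n 975608309290419813419816434794660928) =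
      pm 975608309290419813419816434794660928 ^ n := by
    intro n
    rw [pr, List.map_replicate, List.prod_replicate]
  refine ⟨⟨pm 975608309290419813419816434794660928, hm⟩, ?_⟩
  rw [Subgroup.orderOf_mk]
  have okn : okl [] = true := rfl
  have h8 : pm 975608309290419813419816434794660928 ^ 8 = 1 := by
    have := pr_of_weq (h0l 8) okn (by decide +kernel)
    rwa [hpr, pr_nil] at this
  have h4 : pm 975608309290419813419816434794660928 ^ 4 ≠ 1 := by
    have := pr_ne (h0l 4) okn (by decide +kernel)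
    rwa [hpr, pr_nil] at this
  have : Fact (Nat.Prime 2) := ⟨Nat.prime_two⟩
  exact orderOf_eq_prime_pow (x := pm 975608309290419813419816434794660928) (p := 2) (n := 2)
    (by norm_num; exact h4) (by norm_num; exact h8)

theorem exists_eight {K : Type*} [Group K] (h : Spor.IsoJ4 K) : ∃ y : K, orderOf y = 2 ^ 3 := by
  obtain ⟨e⟩ := h
  obtain ⟨g, hg⟩ := m24_eight
  refine ⟨e.symm (Cfsg.Agent.J4.Pres.phi g), ?_⟩
  have h1 : orderOf (e.symm (Cfsg.Agent.J4.Pres.phi g)) = orderOf (Cfsg.Agent.J4.Pres.phi g) :=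
    orderOf_injective e.symm.toMonoidHom e.symm.injective _
  have h2 : orderOf (Cfsg.Agent.J4.Pres.phi g) = orderOf g :=
    orderOf_injective _ Cfsg.Agent.H49.JFourThree.phi_injective _
  rw [h1, h2, hg]

theorem of_M24 {p : ℕ} (hp : p.Prime) (h : p ∣ 244823040) (h2 : ¬ p ^ 2 ∣ 86775571046077562880) : NoTE p Spor.J4 := by
  have := finite_J4
  have : Fact p.Prime := ⟨hp⟩
  have hs : IsSimpleGroup M24 := Cfsg.Agent.S0365.result
  have hf : Finite M24 := Nat.finite_of_card_ne_zero (by rw [Cfsg.Agent.S2038.card_M24]; norm_num)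
  refine NoTE.of_lw (cyclic_of_card (by rw [card_J4]; exact h2))
    (Lw.of_simple (Q := M24) (fun hsol => not_comm_of_card (K := M24) (by
      rw [Cfsg.Agent.S2038.card_M24]
      norm_num) ⟨⟨fun a b => IsSimpleGroup.comm_iff_isSolvable.2 hsol a b⟩⟩) (by
      rw [Cfsg.Agent.S2038.card_M24]
      exact h) Cfsg.Agent.J4.Pres.phi Cfsg.Agent.H49.JFourThree.phi_injective ?_)
  intro h3
  have h4 := Cfsg.Agent.H49.JFourThree.card_range
  rw [MonoidHom.range_eq_top.2 h3, card_top, card_J4] at h4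
  norm_num at h4

theorem eleven : NoTE 11 Spor.J4 := by
  have := finite_J4
  have hs := simple_J4
  have : Fact (Nat.Prime 11) := ⟨by norm_num⟩
  have hG : ¬ IsMulCommutative Spor.J4 := not_comm_of_card (by rw [card_J4]; norm_num)
  obtain ⟨z, hz⟩ := Cfsg.Agent.H337.isOfJankoFourType_of_isoJ4 (G := Spor.J4) ⟨MulEquiv.refl _⟩
  refine NoTE.of_even (Cfsg.Agent.H301.SY.center_eq_bot hG) fun x hx => ?_
  obtain ⟨t, ht, hxt⟩ := Cfsg.Agent.H478.RadJ4.exists_invol hx
  refine ⟨t, ?_, hxt.symm, not_dvd_rad (by norm_num) (Cfsg.Agent.H478.RadJ4.radFree_invol hG hz ht)⟩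
  rintro rfl
  rw [orderOf_one] at ht
  omega

/-- **the row `J4` of S3854** -/
theorem noTE_j4 {K : Type*} [Group K] [Finite K] [IsSimpleGroup K] (h : Cfsg.Spor.IsoJ4 K) {p : ℕ}
    [hf : Fact p.Prime] (hp : 5 ≤ p) (hb : Cfsg.Agent.H301.SY.Blk p K) (_hO : Cfsg.Agent.H301.SY.ThO p K) :
    Cfsg.Agent.H959.T5.NoTE p K := by
  have hJ := h
  obtain ⟨e⟩ := h
  have := finite_J4
  have hc : Nat.card K = 86775571046077562880 := (Nat.card_congr e.toEquiv).trans card_J4
  by_cases hd : p ∣ 86775571046077562880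
  swap
  · intro x hx _ _
    apply hd
    rw [← hc]
    exact hx ▸ orderOf_dvd_natCard x
  have hpp := hf.out
  have h1 : p ∣ 2 ^ 21 * 3 ^ 3 * 5 * 7 * 11 ^ 3 * 23 * 29 * 31 * 37 * 43 := by norm_num; exact hd
  have h2 : p = 5 ∨ p = 7 ∨ p = 11 ∨ p = 23 ∨ p = 29 ∨ p = 31 ∨ p = 37 ∨ p = 43 := by
    rw [hpp.dvd_mul, hpp.dvd_mul, hpp.dvd_mul, hpp.dvd_mul, hpp.dvd_mul, hpp.dvd_mul, hpp.dvd_mul, hpp.dvd_mul,
      hpp.dvd_mul] at h1
    have key : ∀ {q : ℕ}, q.Prime → p ∣ q → p = q := fun hq h => (Nat.prime_dvd_prime_iff_eq hpp hq).1 h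
    rcases h1 with ((((((((h1 | h1) | h1) | h1) | h1) | h1) | h1) | h1) | h1) | h1
    · have := key Nat.prime_two (hpp.dvd_of_dvd_pow h1); omega
    · have := key Nat.prime_three (hpp.dvd_of_dvd_pow h1); omega
    · have := key Nat.prime_five h1; omega
    · have := key (by norm_num) h1; omega
    · have := key (by norm_num) (hpp.dvd_of_dvd_pow h1); omega
    · have := key (by norm_num) h1; omega
    · have := key (by norm_num) h1; omega
    · have := key (by norm_num) h1; omega
    · have := key (by norm_num) h1; omega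
    · have := key (by norm_num) h1; omega
  obtain ⟨y, hy⟩ := exists_eight hJ
  rcases h2 with rfl | rfl | rfl | rfl | rfl | rfl | rfl | rfl
  · exact NoTE.congr e (of_M24 hpp (by norm_num) (by norm_num))
  · exact NoTE.congr e (of_M24 hpp (by norm_num) (by norm_num))
  · exact NoTE.congr e eleven
  · exact NoTE.congr e (of_M24 hpp (by norm_num) (by norm_num))
  · exact NoTE.of_orderOf (cyclic_of_card (by rw [hc]; norm_num)) hb (by norm_num) hy (by norm_num)
  · exact NoTE.of_orderOf (cyclic_of_card (by rw [hc]; norm_num)) hb (by norm_num) hy (by norm_num)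
  · exact NoTE.of_orderOf (cyclic_of_card (by rw [hc]; norm_num)) hb (by norm_num) hy (by norm_num)
  · exact NoTE.of_orderOf (cyclic_of_card (by rw [hc]; norm_num)) hb (by norm_num) hy (by norm_num)

end Cfsg.Agent.H196.T5.J4
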