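import Mathlib
import Cfsg.Agent.H387.SyRu
import Cfsg.Agent.H753.FxRu
import Cfsg.Agent.H959.T5.Tools

/-!
# The row `Ru` of S3854 (helper196, for helper959)

`p = 5`: the representatives of helper387; `p = 7, 13`: `Sz(8)`; `p = 29`: an element of order 8.
-/

set_option autoImplicit false
set_option maxRecDepth 100000

namespace Cfsg.Agent.H196.T5.Ru

open Subgroup Cfsg Cfsg.Agent.H301.SY Cfsg.Agent.H387.SyCube Cfsg.Agent.H461.T5 Cfsg.Agent.H461.T5.Ru
open Cfsg.Agent.Lib Cfsg.Agent.SporadicB Cfsg.Agent.SporadicB.RuOrder Cfsg.Agent.RuD.Letters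
open Cfsg.Agent.SporRec.TCUpperCert Cfsg.Agent.CpAutRuFive
open Cfsg.Agent.KFacts.Ru Cfsg.Agent.KFacts.Ru.CentEng Cfsg.Agent.H387.SyRu Cfsg.Agent.H959.T5

/-- `NoRE` from representatives -/
theorem noRE_cube {G : Type*} [Group G] [Finite G] {p : ℕ} [Fact p.Prime] (h4 : ¬ p ^ 4 ∣ Nat.card G) {a b c : G}
    (ha : a ^ p = 1) (hb : b ^ p = 1) (hc : c ^ p = 1) (hc1 : c ≠ 1) (hac : a * c = c * a) (hbc : b * c = c * b)
    (hab : a * b = b * a * c) (H : ∀ r, Rp p a b c r → ¬ RE r) : NoRE p G := by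
  have hp : p.Prime := Fact.out
  intro x hx hR
  obtain ⟨r, hr, ⟨N, hN⟩, u, n, hn, rfl⟩ := exists_conj_rep h4 ha hb hc hc1 hac hbc hab hx
  refine H r hr ?_
  have h1 := re_conj hR u⁻¹
  have h2 : u⁻¹ * (u * r ^ n * u⁻¹) * u⁻¹⁻¹ = r ^ n := by group
  rw [h2] at h1
  exact re_of_mem_zpowers (pow_mem (mem_zpowers r) n) (mem_zpowers_pow hp hN hn) h1

theorem noTE_five : NoTE 5 RuOrder.H := by
  have : Fact (Nat.Prime 5) := ⟨by norm_num⟩
  have : Finite RuOrder.H := finite_H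
  have hac := eq_of_chkEq chk_ac
  have hbc := eq_of_chkEq chk_bc
  have hab := eq_of_chkEq chk_ab
  simp only [wprod_append] at hac hbc hab
  refine NoRE.noTE (noRE_cube (by rw [RuOrder.card_H]; norm_num) (a := P wa) (b := P wb) (c := P wc) (pow_five chk_a)
    (pow_five chk_b) (pow_five chk_c) ?_ hac hbc hab fun r hr => not_re_rep hr)
  intro h
  have h2 := evalK_eq wc ⟨1, by norm_num⟩
  have h3 : (wprod ml wc : RuOrder.H) = 1 := h
  rw [h3] at h2
  exact Nat.ne_of_beq_eq_false Cfsg.Agent.H461.T5.Ru.chk_ne h2.symm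

theorem exists_eight {K : Type*} [Group K] (h : Spor.IsoRu K) : ∃ y : K, orderOf y = 2 ^ 3 := by
  obtain ⟨e⟩ := h
  have e' := e.trans Cfsg.Agent.RuLat.Main.equiv
  refine ⟨e'.symm ((wprod ml Cfsg.Agent.H753.FxRu.w24 : RuOrder.H) ^ 3), ?_⟩
  have h1 : orderOf (e'.symm ((wprod ml Cfsg.Agent.H753.FxRu.w24 : RuOrder.H) ^ 3)) =
      orderOf ((wprod ml Cfsg.Agent.H753.FxRu.w24 : RuOrder.H) ^ 3) :=
    orderOf_injective e'.symm.toMonoidHom e'.symm.injective _
  rw [h1, orderOf_pow, Cfsg.Agent.H753.FxRu.orderOf_w24]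
  norm_num

/-- **the row `Ru` of S3854** -/
theorem noTE_ru {K : Type*} [Group K] [Finite K] [IsSimpleGroup K] (h : Cfsg.Spor.IsoRu K) {p : ℕ} [Fact p.Prime]
    (hp : 5 ≤ p) (hb : Cfsg.Agent.H301.SY.Blk p K) (hO : Cfsg.Agent.H301.SY.ThO p K) :
    Cfsg.Agent.H959.T5.NoTE p K := by
  have hpp : p.Prime := Fact.out
  have hcard := card_eq h
  intro x hx hR hY
  have hpd : p ∣ 2 ^ 14 * 3 ^ 3 * 5 ^ 3 * 7 * 13 * 29 := by
    have : p ∣ Nat.card K := hx ▸ orderOf_dvd_natCard x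
    rw [hcard] at this
    norm_num
    exact this
  have key : p = 5 ∨ p = 7 ∨ p = 13 ∨ p = 29 := by
    have two {q : ℕ} (hq : q.Prime) {k : ℕ} (h : p ∣ q ^ k) : p = q :=
      (Nat.prime_dvd_prime_iff_eq hpp hq).1 (hpp.dvd_of_dvd_pow h)
    have one {q : ℕ} (hq : q.Prime) (h : p ∣ q) : p = q := (Nat.prime_dvd_prime_iff_eq hpp hq).1 h
    rcases hpp.dvd_mul.1 hpd with h5 | h5
    · rcases hpp.dvd_mul.1 h5 with h5 | h5
      · rcases hpp.dvd_mul.1 h5 with h5 | h5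
        · rcases hpp.dvd_mul.1 h5 with h5 | h5
          · rcases hpp.dvd_mul.1 h5 with h5 | h5
            · have := two Nat.prime_two h5; omega
            · have := two Nat.prime_three h5; omega
          · exact Or.inl (two (by norm_num) h5)
        · exact Or.inr (Or.inl (one (by norm_num) h5))
      · exact Or.inr (Or.inr (Or.inl (one (by norm_num) h5)))
    · exact Or.inr (Or.inr (Or.inr (one (by norm_num) h5)))
  rcases key with rfl | rfl | rfl | rfl
  · obtain ⟨e⟩ := h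
    have e' := e.trans Cfsg.Agent.RuLat.Main.equiv
    have : Finite RuOrder.H := finite_H
    exact (noTE_five.congr e') x hx hR hY
  · exact NoTE.of_lw (cyclic_of_card (by rw [hcard]; norm_num)) (lw_sz h (by norm_num)) x hx hR hY
  · exact NoTE.of_lw (cyclic_of_card (by rw [hcard]; norm_num)) (lw_sz h (by norm_num)) x hx hR hY
  · have hcyc : ∀ Q : Sylow 29 K, IsCyclic (Q : Subgroup K) := cyclic_of_card (by rw [hcard]; norm_num)
    obtain ⟨y, hy⟩ := exists_eight h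
    exact NoTE.of_orderOf hcyc hb (by norm_num) hy (by norm_num) x hx hR hY

end Cfsg.Agent.H196.T5.Ru
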